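import Cfsg.Agent.H777.M5.Amb

/-!
# `V` is fully normalized (helper211, task S5230-P5)

* `mem_normalizer_SV` : `N_{PG}(SV) = SN`;
* `normalizerIn_V` : `N_S(V) = N`;
* `V_fn` : `V` is fully normalized in the fusion system of `G`.
-/

set_option autoImplicit false
set_option linter.unusedSectionVars false
set_option linter.style.haveILetI false

namespace Cfsg.Agent.H211.M5

open Cfsg Cfsg.FusionSystem Cfsg.Agent.H802 Cfsg.Agent.H411.M5 Cfsg.Agent.H777.M5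

/-! ### The normalizer of `SV` in `PG` -/

theorem conj_SW_v {w y : PG} (hi : w.i = 0) (hj : w.j = 0) :
    (w * y * w⁻¹).v = w.v + y.v - act y.i y.j w.v := by
  rw [PG.mul_v, PG.mul_v, PG.mul_i, PG.mul_j, PG.inv_v, hi, hj, neg_zero, act_one, act_one, zero_add, zero_add,
    act_neg, sub_eq_add_neg]

theorem conj_i (w y : PG) : (w * y * w⁻¹).i = y.i := by
  rw [PG.mul_i, PG.mul_i, PG.inv_i]; ring

theorem conj_j (w y : PG) : (w * y * w⁻¹).j = y.j := by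
  rw [PG.mul_j, PG.mul_j, PG.inv_j]; ring

/-- the element of `SV` with given `i`, `j` -/
def sv (i j : ZMod 5) : PG := ⟨![0, 2 * j - 2 * j ^ 2 - i ^ 2, j, -i + 2 * (i * j), 2 * i, 0], 0, i, j⟩

theorem sv_mem (i j : ZMod 5) : sv i j ∈ PG.SV := ⟨rfl, rfl, rfl, rfl, rfl⟩

theorem sv_i (i j : ZMod 5) : (sv i j).i = i := rfl
theorem sv_j (i j : ZMod 5) : (sv i j).j = j := rfl

theorem SV_le_SN : PG.SV ≤ PG.SN := fun _ h => ⟨h.1, h.2.1, h.2.2.1⟩

/-- `SA` normalizes `SV` -/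
theorem conj_SA_mem {w y : PG} (hw : w ∈ PG.SA) (hy : y ∈ PG.SV) : w * y * w⁻¹ ∈ PG.SV := by
  obtain ⟨hi, hj, h2, h4, h5⟩ := hw
  obtain ⟨k5, k4, k2, k1, k3⟩ := hy
  rw [PG.mem_SV, conj_i, conj_j, conj_SW_v hi hj]
  simp only [Pi.add_apply, Pi.sub_apply, act1, act2, act3, act4, act5, h2, h4, h5, k1, k2, k3, k4, k5]
  refine ⟨?_, ?_, ?_, ?_, ?_⟩ <;> ring

/-- an element of `SW` normalizing `SV` is in `SA` -/
theorem mem_SA_of_conj {w : PG} (hi : w.i = 0) (hj : w.j = 0) (h : ∀ y ∈ PG.SV, w * y * w⁻¹ ∈ PG.SV) : w ∈ PG.SA := by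
  have h01 := h _ (sv_mem 0 1)
  have h10 := h _ (sv_mem 1 0)
  rw [PG.mem_SV, conj_i, conj_j, conj_SW_v hi hj, sv_i, sv_j] at h01 h10
  obtain ⟨-, a4, -, a1, -⟩ := h01
  obtain ⟨-, -, -, b1, -⟩ := h10
  have e01 : (sv 0 1).v 4 = 0 := rfl
  have e011 : (sv 0 1).v 1 = 0 := rfl
  have e101 : (sv 1 0).v 1 = -1 := by decide
  simp only [Pi.add_apply, Pi.sub_apply, act1, act4, e01, e011, e101] at a4 a1 b1
  have v5 : w.v 5 = 0 := by linear_combination -a4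
  rw [v5] at a1 b1
  have v2 : w.v 2 = 0 := by linear_combination -a1
  rw [v2] at b1
  have v4 : w.v 4 = 0 := by linear_combination b1
  exact ⟨hi, hj, v2, v4, v5⟩

theorem mem_normalizer_SV {p : PG} : p ∈ Subgroup.normalizer (PG.SV : Set PG) ↔ p ∈ PG.SN := by
  have hs := sv_mem p.i p.j
  have hi : (p * (sv p.i p.j)⁻¹).i = 0 := by rw [PG.mul_i, PG.inv_i, sv_i]; ring
  have hj : (p * (sv p.i p.j)⁻¹).j = 0 := by rw [PG.mul_j, PG.inv_j, sv_j]; ring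
  have hfac : p = p * (sv p.i p.j)⁻¹ * sv p.i p.j := by group
  have hsn : sv p.i p.j ∈ Subgroup.normalizer (PG.SV : Set PG) := Subgroup.le_normalizer hs
  constructor
  · intro hp
    have h1 : p * (sv p.i p.j)⁻¹ ∈ Subgroup.normalizer (PG.SV : Set PG) :=
      Subgroup.mul_mem _ hp (Subgroup.inv_mem _ hsn)
    have h2 := mem_SA_of_conj hi hj (fun y hy => (Subgroup.mem_normalizer_iff.1 h1 y).1 hy)
    have h3 : p * (sv p.i p.j)⁻¹ ∈ PG.SN := by
      obtain ⟨k1, k2, k3, k4, k5⟩ := h2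
      exact ⟨k5, by rw [k4, k1, mul_zero], by rw [k3, k2]⟩
    rw [hfac]
    exact PG.SN.mul_mem h3 (SV_le_SN hs)
  · intro hp
    have h3 : p * (sv p.i p.j)⁻¹ ∈ PG.SN := PG.SN.mul_mem hp (PG.SN.inv_mem (SV_le_SN hs))
    have h2 : p * (sv p.i p.j)⁻¹ ∈ PG.SA := by
      obtain ⟨k5, k4, k2⟩ := h3
      rw [hi, mul_zero] at k4
      rw [hj] at k2
      exact ⟨hi, hj, k2, k4, k5⟩
    rw [hfac]
    refine Subgroup.mul_mem _ ?_ hsn
    rw [Subgroup.mem_normalizer_iff]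
    intro y
    refine ⟨fun hy => conj_SA_mem h2 hy, fun hy => ?_⟩
    have h4 := conj_SA_mem (PG.SA.inv_mem h2) hy
    have e : (p * (sv p.i p.j)⁻¹)⁻¹ * (p * (sv p.i p.j)⁻¹ * y * (p * (sv p.i p.j)⁻¹)⁻¹) *
        (p * (sv p.i p.j)⁻¹)⁻¹⁻¹ = y := by group
    rwa [e] at h4

variable {G : Type} [Group G] [Finite G] (M : MX G)

/-- `N_S(V) = N` -/
theorem normalizerIn_V : normalizerIn M.S M.V = M.N := by
  ext g
  constructor
  · rintro ⟨⟨p, rfl⟩, hg⟩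
    refine ⟨p, ?_, rfl⟩
    refine mem_normalizer_SV.1 (Subgroup.mem_normalizer_iff.2 fun y => ?_)
    have key : ∀ y : PG, y ∈ PG.SV ↔ M.f y ∈ M.V := by
      intro y
      refine ⟨fun hy => ⟨y, hy, rfl⟩, ?_⟩
      rintro ⟨z, hz, hzy⟩
      rwa [← M.f_injective hzy]
    rw [key, key, map_mul, map_mul, map_inv]
    exact Subgroup.mem_normalizer_iff.1 hg _
  · rintro ⟨p, hp, rfl⟩
    refine ⟨M.mem_S, Subgroup.mem_normalizer_iff.2 fun g => ?_⟩
    have hn := Subgroup.mem_normalizer_iff.1 (mem_normalizer_SV.2 hp)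
    constructor
    · rintro ⟨y, hy, rfl⟩
      exact ⟨p * y * p⁻¹, (hn y).1 hy, by rw [map_mul, map_mul, map_inv]⟩
    · rintro ⟨y, hy, he⟩
      refine ⟨p⁻¹ * y * p, (hn _).2 ?_, ?_⟩
      · have e : p * (p⁻¹ * y * p) * p⁻¹ = y := by group
        rwa [e]
      · rw [map_mul, map_mul, map_inv, he]
        group

theorem card_N (hN : Nat.card PG.SN = 5 ^ 6) : Nat.card M.N = 5 ^ 6 := by
  rw [← hN]
  exact (Nat.card_congr (Subgroup.equivMapOfInjective PG.SN M.f M.f_injective).toEquiv).symm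

/-- `V` is fully normalized, from P2 and P3. -/
theorem V_fn_of (hN : Nat.card PG.SN = 5 ^ 6)
    (fn_pg : ∀ (ψ : PG.SN →* PG), Function.Injective ψ →
      (∀ y : PG.SN, (y : PG) ∈ PG.SL ↔ ψ y ∈ PG.SL) ∧
      ((∀ y : PG.SN, (y : PG) ∈ PG.SV ↔ ψ y ∈ PG.SA) ∨
       Nat.card (Subgroup.normalizer (((PG.SV.subgroupOf PG.SN).map ψ : Subgroup PG) : Set PG)) ≤ 5 ^ 6))
    (not_conj_SA : ∀ g : G, (∀ y ∈ PG.SL, ∃ p ∈ PG.SL, M.f p = g * M.f y * g⁻¹) →
      (∀ y ∈ PG.SV, ∃ p ∈ PG.SA, M.f p = g * M.f y * g⁻¹) → False) :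
    M.F.IsFullyNormalized M.V := by
  obtain ⟨Q, hVQ, hQ⟩ := exists_isFullyNormalized M.S_isPGroup M.F_sat M.V_le
  have hVQ' := hVQ
  obtain ⟨φ, hφ, hr⟩ := hVQ'
  obtain ⟨β, hβ, ψ, ⟨-, hψS, g, hg⟩, he, hm⟩ := exists_extension_normalizer M.S_isPGroup M.F_sat hφ hr hQ
  have hNe := normalizerIn_V M
  -- the map `SN → PG`
  have hmem : ∀ y : PG.SN, M.f y ∈ normalizerIn M.S M.V := fun y => by
    rw [hNe]; exact ⟨y, y.2, rfl⟩
  have hex : ∀ y : PG.SN, ∃ p : PG, M.f p = g * M.f y * g⁻¹ := fun y => by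
    have h1 := hψS ⟨_, hmem y⟩
    rw [hg] at h1
    exact h1
  choose θ hθ using hex
  let Θ : PG.SN →* PG := MonoidHom.mk' θ (fun y z => M.f_injective (by
    rw [map_mul, hθ, hθ, hθ, Subgroup.coe_mul, map_mul]; group))
  have hΘ : ∀ y : PG.SN, M.f (Θ y) = g * M.f y * g⁻¹ := hθ
  have hΘi : Function.Injective Θ := by
    intro y z hyz
    have h1 := hΘ y
    rw [hyz, hΘ z] at h1
    have h2 : M.f z = M.f y := mul_left_cancel (mul_right_cancel h1)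
    exact Subtype.ext (M.f_injective h2).symm
  -- `Q = g V g⁻¹`
  have hQV : ∀ x ∈ M.V, g * x * g⁻¹ ∈ Q := by
    intro x hx
    have h1 : φ ⟨x, hx⟩ ∈ Q := hr.le ⟨_, rfl⟩
    have h2 : (x : G) ∈ normalizerIn M.S M.V := by
      exact ⟨M.V_le hx, Subgroup.le_normalizer hx⟩
    have h3 := he ⟨x, hx⟩ h1 h2
    rw [hg] at h3
    have h4 : g * x * g⁻¹ = (β ⟨φ ⟨x, hx⟩, h1⟩ : Q) := h3
    rw [h4]
    exact (β _).2
  have hQeq : Q = ((PG.SV.subgroupOf PG.SN).map Θ : Subgroup PG).map M.f := by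
    symm
    have hfQ : Finite Q := inferInstance
    refine Subgroup.eq_of_le_of_card_ge ?_ ?_
    · rintro _ ⟨_, ⟨y, hy, rfl⟩, rfl⟩
      rw [hΘ]
      exact hQV _ ⟨y, hy, rfl⟩
    · rw [← isConj_card_eq hVQ]
      rw [← Nat.card_congr (Subgroup.equivMapOfInjective _ M.f M.f_injective).toEquiv,
        ← Nat.card_congr (Subgroup.equivMapOfInjective _ Θ hΘi).toEquiv,
        Nat.card_congr (Subgroup.subgroupOfEquivOfLe SV_le_SN).toEquiv]
      exact (Nat.card_congr (Subgroup.equivMapOfInjective PG.SV M.f M.f_injective).toEquiv).ge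
  obtain ⟨hL, hV⟩ := fn_pg Θ hΘi
  rcases hV with hV | hV
  · exfalso
    refine not_conj_SA g ?_ ?_
    · intro y hy
      have hyN : y ∈ PG.SN := by
        obtain ⟨h1, h2, h3, h4, h5, h6, h7⟩ := hy
        exact ⟨h7, by rw [h6, h1, mul_zero], by rw [h4, h2]⟩
      exact ⟨Θ ⟨y, hyN⟩, (hL ⟨y, hyN⟩).1 hy, hΘ _⟩
    · intro y hy
      exact ⟨Θ ⟨y, SV_le_SN hy⟩, (hV ⟨y, SV_le_SN hy⟩).1 hy, hΘ _⟩
  · refine ⟨M.V_le, fun R hR => ?_⟩
    refine (hQ.2 R (isConj_trans (isConj_symm hVQ) hR)).trans ?_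
    have h1 : Nat.card (normalizerIn M.S M.V) = 5 ^ 6 := by rw [hNe, card_N M hN]
    have h2 : Nat.card (normalizerIn M.S Q) ≤
        Nat.card (Subgroup.normalizer (((PG.SV.subgroupOf PG.SN).map Θ : Subgroup PG) : Set PG)) := by
      have hle : normalizerIn M.S Q ≤
          (Subgroup.normalizer (((PG.SV.subgroupOf PG.SN).map Θ : Subgroup PG) : Set PG)).map M.f := by
        rintro _ ⟨⟨p, rfl⟩, hp⟩
        refine ⟨p, Subgroup.mem_normalizer_iff.2 fun y => ?_, rfl⟩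
        have key : ∀ y : PG, y ∈ (PG.SV.subgroupOf PG.SN).map Θ ↔ M.f y ∈ Q := by
          intro y
          rw [hQeq]
          refine ⟨fun hy => ⟨y, hy, rfl⟩, ?_⟩
          rintro ⟨z, hz, hzy⟩
          rwa [← M.f_injective hzy]
        rw [key, key, map_mul, map_mul, map_inv]
        exact Subgroup.mem_normalizer_iff.1 hp _
      refine (Nat.card_mono (Set.toFinite _) hle).trans ?_
      exact (Nat.card_congr (Subgroup.equivMapOfInjective _ M.f M.f_injective).toEquiv).ge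
    show Nat.card (normalizerIn M.S Q) ≤ Nat.card (normalizerIn M.S M.V)
    rw [h1]
    exact h2.trans hV

end Cfsg.Agent.H211.M5
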